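import Cfsg.Agent.H873.RG.Defs

/-!
# S3509: the sporadic row from the rows of the 26 groups (helper867)

`row_spor (R : Rows) : RowX (fun S _ => IsSporadicGroup S)`; a row may use the classification (`hK`), the induction hypothesis
`IHx`, simplicity (`NSA`). `RowX.of_rc` : a row from `Iso.. S → RC S`.
-/

set_option autoImplicit false
open Cfsg

namespace Cfsg.Agent.H867.RG

open Cfsg.Agent.H106.RC Cfsg.Agent.H873.RG

/-- a row without the induction hypothesis -/
theorem RowX.of_rc {P : ∀ (S : Type) [Group S], Prop} (h : ∀ (S : Type) [Group S] [Finite S], P S → RC S) : RowX P :=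
  fun S _ _ _ hP _ => h S hP

/-- a row without the induction hypothesis, with simplicity -/
theorem RowX.of_simple {P : ∀ (S : Type) [Group S], Prop}
    (h : ∀ (S : Type) [Group S] [Finite S], IsSimpleGroup S → ¬ IsMulCommutative S → P S → RC S) : RowX P :=
  fun S _ _ hS hP _ => h S hS.simple hS.ncomm hP

/-- the 26 rows -/
structure Rows : Prop where
  m11 : RowX (fun S _ => Spor.IsoM11 S)
  m12 : RowX (fun S _ => Spor.IsoM12 S)
  m22 : RowX (fun S _ => Spor.IsoM22 S)
  m23 : RowX (fun S _ => Spor.IsoM23 S)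
  m24 : RowX (fun S _ => Spor.IsoM24 S)
  j1 : RowX (fun S _ => Spor.IsoJ1 S)
  j2 : RowX (fun S _ => Spor.IsoJ2 S)
  j3 : RowX (fun S _ => Spor.IsoJ3 S)
  j4 : RowX (fun S _ => Spor.IsoJ4 S)
  co1 : RowX (fun S _ => Spor.IsoCo1 S)
  co2 : RowX (fun S _ => Spor.IsoCo2 S)
  co3 : RowX (fun S _ => Spor.IsoCo3 S)
  mcl : RowX (fun S _ => Spor.IsoMcL S)
  hs : RowX (fun S _ => Spor.IsoHS S)
  suz : RowX (fun S _ => Spor.IsoSuz S)
  he : RowX (fun S _ => Spor.IsoHe S)
  ru : RowX (fun S _ => Spor.IsoRu S)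
  on : RowX (fun S _ => Spor.IsoON S)
  ly : RowX (fun S _ => Spor.IsoLy S)
  fi22 : RowX (fun S _ => Spor.IsoFi22 S)
  fi23 : RowX (fun S _ => Spor.IsoFi23 S)
  fi24 : RowX (fun S _ => Spor.IsoFi24' S)
  hn : RowX (fun S _ => Spor.IsoHN S)
  th : RowX (fun S _ => Spor.IsoTh S)
  b : RowX (fun S _ => Spor.IsoB S)
  m : RowX (fun S _ => Spor.IsoM S)

/-- **the sporadic row** -/
theorem row_spor (R : Rows) : RowX (fun S _ => IsSporadicGroup S) := by
  intro S _ _ hS h ih
  rcases h with h | h | h | h | h | h | h | h | h | h | h | h | h | h | h | h | h | h | h | h | h | h | h | h | h | h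
  · exact R.m11 S hS h ih
  · exact R.m12 S hS h ih
  · exact R.m22 S hS h ih
  · exact R.m23 S hS h ih
  · exact R.m24 S hS h ih
  · exact R.j1 S hS h ih
  · exact R.j2 S hS h ih
  · exact R.j3 S hS h ih
  · exact R.j4 S hS h ih
  · exact R.co1 S hS h ih
  · exact R.co2 S hS h ih
  · exact R.co3 S hS h ih
  · exact R.mcl S hS h ih
  · exact R.hs S hS h ih
  · exact R.suz S hS h ih
  · exact R.he S hS h ih
  · exact R.ru S hS h ih
  · exact R.on S hS h ih
  · exact R.ly S hS h ih
  · exact R.fi22 S hS h ih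
  · exact R.fi23 S hS h ih
  · exact R.fi24 S hS h ih
  · exact R.hn S hS h ih
  · exact R.th S hS h ih
  · exact R.b S hS h ih
  · exact R.m S hS h ih

end Cfsg.Agent.H867.RG
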